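import Cfsg.Agent.S0483
import Cfsg.Agent.S0507
import Cfsg.Agent.TwoFusion.MaxClass
import Cfsg.Agent.Lib.Cores

/-!
# Simple groups with a fours group `V` such that `8 ∤ |C(V)|` (helper5)
-/

set_option autoImplicit false

namespace Cfsg.Agent.H5.Four

open Subgroup Cfsg
open scoped commutatorElement

universe u

section TwoGroup

variable {S : Type*} [Group S] [Finite S]

/-- a 2-group with a fours group `V`, `C(V) = V` -/
theorem maxclass (hS : IsPGroup 2 S) {V : Subgroup S} (hV : Nat.card V = 4) (hV2 : ∀ x ∈ V, x * x = 1)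
    (hC : centralizer (V : Set S) ≤ V) :
    (∃ m : ℕ, 2 ≤ m ∧ Nonempty (S ≃* DihedralGroup m)) ∨ IsQuasiDihedral S := by
  have : Fact (Nat.Prime 2) := ⟨Nat.prime_two⟩
  have hVc : ∀ a ∈ V, ∀ b ∈ V, a * b = b * a := by
    intro a ha b hb
    have h1 := hV2 _ (V.mul_mem ha hb)
    have h2 := hV2 a ha
    have h3 := hV2 b hb
    calc a * b = a * (a * b * (a * b)) * b := by rw [h1]; group
      _ = (a * a) * (b * a) * (b * b) := by group
      _ = b * a := by rw [h2, h3]; group
  by_cases hSV : V = ⊤
  · left
    have hc : Nat.card S = 4 := by rw [← hV, hSV, card_top]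
    refine ⟨2, le_rfl, ?_⟩
    have h1 : IsKleinFour S := by
      refine ⟨hc, ?_⟩
      have hexp : Monoid.exponent S ∣ 2 := by
        rw [Monoid.exponent_dvd_iff_forall_pow_eq_one]
        intro g
        rw [pow_two]
        exact hV2 g (hSV ▸ mem_top g)
      rcases (Nat.dvd_prime Nat.prime_two).1 hexp with h | h
      · exfalso
        have h2 : Subsingleton S := Monoid.exp_eq_one_iff.1 h
        have := Nat.card_of_subsingleton (1 : S)
        omega
      · exact h
    exact IsKleinFour.nonempty_mulEquiv
  · have hZV : center S ≤ V := (center_le_centralizer _).trans hC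
    have hnt : Nontrivial S := by
      by_contra hcon
      rw [not_nontrivial_iff_subsingleton] at hcon
      have h1 := Nat.card_of_subsingleton (1 : V)
      omega
    have hZ1 : center S ≠ ⊥ := by
      have := hS.bot_lt_center
      exact this.ne'
    have hVZ : ¬ V ≤ center S := by
      intro h
      apply hSV
      rw [eq_top_iff]
      intro s _
      apply hC
      rw [mem_centralizer_iff]
      intro v hv
      exact (mem_center_iff.1 (h hv) s).symm
    obtain ⟨x, hxV, hxZ⟩ := SetLike.not_le_iff_exists.1 hVZ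
    obtain ⟨⟨z, hz⟩, hz1⟩ := ne_bot_iff_exists_ne_one.1 hZ1
    have hz1' : z ≠ 1 := fun h => hz1 (Subtype.ext h)
    have hx1 : x ≠ 1 := by rintro rfl; exact hxZ (one_mem _)
    have hxz : x ≠ z := by rintro rfl; exact hxZ hz
    have hzV := hZV hz
    have hall : ∀ v ∈ V, v = 1 ∨ v = x ∨ v = z ∨ v = x * z := by
      intro v hv
      by_contra hcon
      push Not at hcon
      obtain ⟨c1, c2, c3, c4⟩ := hcon
      have hxx := hV2 x hxV
      have h1 : ({1, x, z, x * z, v} : Set S) ⊆ (V : Set S) := by
        rintro w (rfl | rfl | rfl | rfl | rfl)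
        · exact V.one_mem
        · exact hxV
        · exact hzV
        · exact V.mul_mem hxV hzV
        · exact hv
      have h2 : ({1, x, z, x * z, v} : Set S).ncard = 5 := by
        have e1 : x * z ≠ x := by rwa [Ne, mul_eq_left]
        have e2 : x * z ≠ z := by rwa [Ne, mul_eq_right]
        have e3 : (1 : S) ≠ x * z := by
          intro h
          apply hxz
          have : x * (x * z) = x * 1 := by rw [← h]
          rw [← mul_assoc, hxx, one_mul, mul_one] at this
          exact this.symm
        rw [Set.ncard_insert_of_notMem, Set.ncard_insert_of_notMem, Set.ncard_insert_of_notMem, Set.ncard_pair c4.symm]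
        · rintro (h | h)
          · exact e2 h.symm
          · exact c3 h.symm
        · rintro (h | h | h)
          · exact hxz h
          · exact e1 h.symm
          · exact c2 h.symm
        · rintro (h | h | h | h)
          · exact hx1 h.symm
          · exact hz1' h.symm
          · exact e3 h
          · exact c1 h.symm
      have h3 := Set.ncard_le_ncard h1 (Set.toFinite _)
      have h4 : (V : Set S).ncard = 4 := by
        rw [← hV]; rfl
      omega
    have hcx : centralizer ({x} : Set S) = V := by
      apply le_antisymm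
      · intro s hs
        rw [mem_centralizer_singleton_iff] at hs
        apply hC
        rw [mem_centralizer_iff]
        intro v hv
        have hsz := mem_center_iff.1 hz s
        rcases hall v hv with rfl | rfl | rfl | rfl
        · rw [one_mul, mul_one]
        · exact hs.symm
        · exact hsz.symm
        · rw [mul_assoc, ← hsz, ← mul_assoc, ← hs, mul_assoc]
      · intro v hv
        rw [mem_centralizer_singleton_iff]
        exact hVc v hv x hxV
    have hox : orderOf x = 2 := orderOf_eq_prime (by rw [pow_two]; exact hV2 x hxV) hx1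
    exact TwoFusion.MaxClass.dihedral_or_qd_of_card_centralizer_eq_four hS x hox hxZ (by rw [hcx, hV])

end TwoGroup

section Simple

variable {T : Type u} [Group T] [Finite T] [hs : IsSimpleGroup T]

/-- the list -/
def MaxList (T : Type u) [Group T] : Prop :=
  (∃ (F : Type) (_ : Field F) (_ : Fintype F), Odd (Fintype.card F) ∧ Nonempty (T ≃* Matrix.ProjectiveSpecialLinearGroup (Fin 2) F)) ∨
    Nonempty (T ≃* alternatingGroup (Fin 7)) ∨
    (∃ (F : Type) (_ : Field F) (_ : Fintype F), Fintype.card F % 4 = 3 ∧
      Nonempty (T ≃* Matrix.ProjectiveSpecialLinearGroup (Fin 3) F)) ∨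
    (∃ (F : Type) (_ : Field F) (_ : Fintype F) (q : ℕ), Fintype.card F = q ^ 2 ∧ q % 4 = 1 ∧ Nonempty (T ≃* PSU 3 F q)) ∨
    IsM11 T

theorem maxList (hna : ∃ a b : T, a * b ≠ b * a) {V : Subgroup T} (hV : Nat.card V = 4)
    (hV2 : ∀ x ∈ V, x * x = 1) (hC : ¬ 8 ∣ Nat.card (centralizer (V : Set T))) : MaxList T := by
  have : Fact (Nat.Prime 2) := ⟨Nat.prime_two⟩
  have hVp : IsPGroup 2 V := IsPGroup.of_card (n := 2) (by rw [hV]; norm_num)
  obtain ⟨S, hVS⟩ := hVp.exists_le_sylow
  -- the fours group in `S`
  have hV' : Nat.card (V.subgroupOf (S : Subgroup T)) = 4 := by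
    rw [Nat.card_congr (subgroupOfEquivOfLe hVS).toEquiv, hV]
  have hV2' : ∀ x ∈ V.subgroupOf (S : Subgroup T), x * x = 1 := fun x hx => Subtype.ext (hV2 x (mem_subgroupOf.1 hx))
  have hVc : ∀ a ∈ V, ∀ b ∈ V, a * b = b * a := by
    intro a ha b hb
    have h1 := hV2 _ (V.mul_mem ha hb)
    have h2 := hV2 a ha
    have h3 := hV2 b hb
    calc a * b = a * (a * b * (a * b)) * b := by rw [h1]; group
      _ = (a * a) * (b * a) * (b * b) := by group
      _ = b * a := by rw [h2, h3]; group
  have hC' : centralizer ((V.subgroupOf (S : Subgroup T) : Subgroup (S : Subgroup T)) : Set (S : Subgroup T)) ≤ V.subgroupOf (S : Subgroup T) := by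
    set D : Subgroup T := (S : Subgroup T) ⊓ centralizer (V : Set T) with hD
    have hVD : V ≤ D := le_inf hVS fun a ha => mem_centralizer_iff.2 fun b hb => hVc b hb a ha
    have hDV : D = V := by
      have hDp : IsPGroup 2 D := S.2.to_le inf_le_left
      obtain ⟨k, hk⟩ := IsPGroup.iff_card.1 hDp
      have h1 : Nat.card V ∣ Nat.card D := card_dvd_of_le hVD
      have h2 : Nat.card D ∣ Nat.card (centralizer (V : Set T)) := card_dvd_of_le inf_le_right
      have hk2 : k ≤ 2 := by
        by_contra hcon
        apply hC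
        refine Dvd.dvd.trans ?_ h2
        rw [hk]
        exact pow_dvd_pow 2 (show 3 ≤ k by omega)
      apply (eq_of_le_of_card_ge hVD ?_).symm
      rw [hk, hV]
      calc 2 ^ k ≤ 2 ^ 2 := Nat.pow_le_pow_right (by norm_num) hk2
        _ = 4 := by norm_num
    intro s hs
    rw [mem_subgroupOf, ← hDV]
    refine ⟨s.2, mem_centralizer_iff.2 fun v hv => ?_⟩
    exact congrArg Subtype.val (mem_centralizer_iff.1 hs ⟨v, hVS hv⟩ (mem_subgroupOf.2 hv))
  have hna' : ¬ IsMulCommutative T := by
    intro h
    obtain ⟨a, b, hab⟩ := hna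
    exact hab (h.is_comm.comm a b)
  have hperf : Group.IsPerfect T := by
    rw [Group.isPerfect_def]
    have hn : (commutator T).Normal := inferInstance
    rcases hn.eq_bot_or_eq_top with h | h
    · exfalso
      apply hna'
      refine ⟨⟨fun a b => ?_⟩⟩
      have h3 : ⁅a, b⁆ ∈ commutator T := commutator_mem_commutator (mem_top a) (mem_top b)
      rw [h, mem_bot, commutatorElement_eq_one_iff_mul_comm] at h3
      exact h3
    · exact h
  rcases maxclass S.2 hV' hV2' hC' with ⟨m, hm, hSm⟩ | hqd
  · have hO : oddCore T = ⊥ := by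
      have hn : (oddCore T).Normal := Lib.Cores.pPrimeCore_normal 2
      rcases hn.eq_bot_or_eq_top with h | h
      · exact h
      · exfalso
        have hc : (Nat.card (oddCore T)).Coprime 2 := Lib.Cores.pPrimeCore_coprime (G := T) 2
        rw [h, card_top] at hc
        have h1 : 4 ∣ Nat.card T := by rw [← hV]; exact card_subgroup_dvd_card V
        have h2 : ¬ 2 ∣ Nat.card T := by
          intro h2
          have := Nat.Coprime.eq_one_of_dvd hc.symm h2
          omega
        exact h2 (Dvd.dvd.trans (by norm_num) h1)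
    let e0 : T ⧸ oddCore T ≃* T := (QuotientGroup.quotientMulEquivOfEq hO).trans QuotientGroup.quotientBot
    rcases S0483.result S m hm hSm with ⟨F, _, _, hF, h3, ⟨e⟩⟩ | ⟨⟨e⟩⟩
    · exact Or.inl ⟨F, _, _, hF, ⟨e0.symm.trans e⟩⟩
    · exact Or.inr (Or.inl ⟨e0.symm.trans e⟩)
  · rcases S0507.result S hqd with h | h | h
    · exact Or.inr (Or.inr (Or.inl h))
    · exact Or.inr (Or.inr (Or.inr (Or.inl h)))
    · exact Or.inr (Or.inr (Or.inr (Or.inr h)))

end Simple

end Cfsg.Agent.H5.Four
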